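import Cfsg.Agent.H138.XChev
import Cfsg.Agent.H164.TRowExc
import Cfsg.Agent.S1059
import Cfsg.Agent.S1062
import Cfsg.Agent.S1063
import Cfsg.Agent.S1064
import Cfsg.Agent.S1065

/-!
# `XRow` for the exceptional Chevalley groups (helper138, for S4938)
-/

set_option autoImplicit false

namespace Cfsg.Agent.H138.XExc

open Cfsg Cfsg.Lie Cfsg.Lie.ChevalleyDatum
open Cfsg.Agent.ChevalleyStructure Cfsg.Agent.ChevalleyStructure.CoxeterGeomTypes Cfsg.Agent.ChevalleyStructure.NPerm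
open Cfsg.Agent.Nodes Cfsg.Agent.Nodes.RGDChev Cfsg.Agent.ChevStructure.FieldMap
open Cfsg.Agent.H730.Pair Cfsg.Agent.H967.CopMat Cfsg.Agent.H967.CopRow Cfsg.Agent.H967.CopChev

theorem dvd_pow_sub {p q n : ℕ} (hp : p.Prime) (h : (p - 1) ∣ n) : p ∣ q ∨ p ∣ q ^ n - 1 := by
  by_cases hq : p ∣ q
  · exact Or.inl hq
  right
  have : Fact p.Prime := ⟨hp⟩
  obtain ⟨k, rfl⟩ := h
  have h0 : (q : ZMod p) ≠ 0 := by
    rw [Ne, ZMod.natCast_eq_zero_iff]
    exact hq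
  have hq0 : 0 < q := Nat.pos_of_ne_zero fun h => hq (h ▸ dvd_zero p)
  rw [← ZMod.natCast_eq_zero_iff, Nat.cast_sub (Nat.one_le_pow _ _ hq0), Nat.cast_pow, pow_mul,
    ZMod.pow_card_sub_one_eq_one h0, one_pow, Nat.cast_one, sub_self]

/-- small primes -/
theorem small4 {N : ℕ} (h2 : 2 ∣ N) (h3 : 3 ∣ N) : ∀ p : ℕ, p.Prime → p < 5 → p ∣ N := by
  intro p hp h
  interval_cases p
  · exact absurd hp (by norm_num)
  · exact absurd hp (by norm_num)
  · exact h2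
  · exact h3
  · exact absurd hp (by norm_num)

theorem small6 {N : ℕ} (h2 : 2 ∣ N) (h3 : 3 ∣ N) (h5 : 5 ∣ N) : ∀ p : ℕ, p.Prime → p < 7 → p ∣ N := by
  intro p hp h
  rcases Nat.lt_or_ge p 5 with h1 | h1
  · exact small4 h2 h3 p hp h1
  · interval_cases p
    · exact h5
    · exact absurd hp (by norm_num)

theorem qq_dvd {N d q k X : ℕ} (h : d * N = q ^ k * X) (hk : 2 ≤ k) (hd : d.Coprime q) : q * q ∣ N := by
  have h1 : q * q ∣ d * N := by
    rw [h]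
    refine Dvd.dvd.mul_right ?_ _
    rw [← sq]
    exact pow_dvd_pow q hk
  exact (Nat.Coprime.mul_right hd hd).symm.dvd_of_dvd_mul_left h1

theorem cop_gcd {a q : ℕ} (hq : 1 < q) : (Nat.gcd a (q - 1)).Coprime q := by
  refine Nat.Coprime.coprime_dvd_left (Nat.gcd_dvd_right _ _) ?_
  rw [Nat.coprime_comm, Nat.coprime_self_sub_right hq.le]
  exact Nat.coprime_one_right q

section Row

variable {D : ChevalleyDatum} {l : ℕ} {M : CoxeterMatrix (Fin l)} (hp : IsType D l M) {F : Type} [Field F]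

include hp in
theorem row {K : Type*} [Group K] [Finite K] [IsSimpleGroup K] [Fintype F] {r : ℕ} [CharP F r]
    (e : K ≃* ↥(D.group F)) (R : IsSimpleGroup ↥(D.group F) → Row (D.group F))
    (c : Fin l → ℤ) (j₀ j₁ i₁ : Fin l) (m t₀ k : ℕ) (hj : D.cartan j₁ (D.simple j₀) = -1)
    (h0 : ∑ j : Fin l, c j * D.cartan j (D.simple j₀) = 0)
    (hpos : ∀ i, i ≠ j₀ → 0 < ∑ j : Fin l, c j * D.cartan j (D.simple i))
    (hm : ∀ s < D.nroots, |∑ j : Fin l, c j * D.cartan j s| ≤ m)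
    (hi : ∑ j : Fin l, c j * D.cartan j (D.simple i₁) = k) (hk0 : 0 < k) (hkt : k < t₀) (ht : 2 * m + 1 < 2 ^ t₀)
    (hsm : 2 ∣ Nat.card ↥(D.group F) → ∀ p, p.Prime → p < t₀ → p ∣ Nat.card ↥(D.group F))
    (hqq : Fintype.card F * Fintype.card F ∣ Nat.card ↥(D.group F)) : XRow r K := by
  have hr : Fact r.Prime := ⟨CharP.char_is_prime F r⟩
  have hn : Nontrivial ↥(D.group F) := e.toEquiv.symm.nontrivial
  have hsi : IsSimpleGroup ↥(D.group F) := IsSimpleGroup.isSimpleGroup_of_surjective e.toMonoidHom e.surjective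
  refine XRow.mulEquiv e.symm ?_
  refine XChev.xRow hp (R hsi) c j₀ j₁ i₁ m t₀ k hj h0 hpos hm hi hk0 hkt ht
    (hsm (H254.CopMain.two_dvd _ (H164.TRowExc.not_comm hp.inList F))) ?_
  rw [Nat.card_eq_fintype_card]
  exact hqq

end Row

theorem chk_g2 : ∀ s < chevG2.nroots, |∑ j : Fin 2, (![1, 2] : Fin 2 → ℤ) j * chevG2.cartan j s| ≤ (2 : ℕ) := by
  decide +kernel

theorem chk_f4 : ∀ s < chevF4.nroots, |∑ j : Fin 4, (![5, 9, 13, 7] : Fin 4 → ℤ) j * chevF4.cartan j s| ≤ (7 : ℕ) := by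
  decide +kernel

theorem chk_e6 : ∀ s < chevE6.nroots,
    |∑ j : Fin 6, (![6, 8, 11, 15, 11, 6] : Fin 6 → ℤ) j * chevE6.cartan j s| ≤ (8 : ℕ) := by
  decide +kernel

theorem of_parts {P : ℕ → Prop} {n k : ℕ} (hn : 0 < n) (h : ∀ i < k, ∀ s < n, P (n * i + s)) : ∀ s < n * k, P s := by
  intro s hs
  have h1 : s / n < k := Nat.div_lt_of_lt_mul hs
  have h2 := h (s / n) h1 (s % n) (Nat.mod_lt _ hn)
  rwa [Nat.div_add_mod] at h2

theorem chk_e7_0 : ∀ s < 42,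
    |∑ j : Fin 7, (![14, 20, 27, 39, 31, 22, 12] : Fin 7 → ℤ) j * chevE7.cartan j (42 * 0 + s)| ≤ (14 : ℕ) := by
  decide +kernel

theorem chk_e7_1 : ∀ s < 42,
    |∑ j : Fin 7, (![14, 20, 27, 39, 31, 22, 12] : Fin 7 → ℤ) j * chevE7.cartan j (42 * 1 + s)| ≤ (14 : ℕ) := by
  decide +kernel

theorem chk_e7_2 : ∀ s < 42,
    |∑ j : Fin 7, (![14, 20, 27, 39, 31, 22, 12] : Fin 7 → ℤ) j * chevE7.cartan j (42 * 2 + s)| ≤ (14 : ℕ) := by
  decide +kernel

theorem chk_e7 : ∀ s < chevE7.nroots,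
    |∑ j : Fin 7, (![14, 20, 27, 39, 31, 22, 12] : Fin 7 → ℤ) j * chevE7.cartan j s| ≤ (14 : ℕ) := by
  have h : chevE7.nroots = 42 * 3 := by decide +kernel
  rw [h]
  refine of_parts (by norm_num) fun i hi => ?_
  interval_cases i
  · exact chk_e7_0
  · exact chk_e7_1
  · exact chk_e7_2

theorem chk_e8_0 : ∀ s < 24,
    |∑ j : Fin 8, (![36, 53, 71, 105, 86, 66, 45, 23] : Fin 8 → ℤ) j * chevE8.cartan j (24 * 0 + s)| ≤ (23 : ℕ) := by
  decide +kernel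

theorem chk_e8_1 : ∀ s < 24,
    |∑ j : Fin 8, (![36, 53, 71, 105, 86, 66, 45, 23] : Fin 8 → ℤ) j * chevE8.cartan j (24 * 1 + s)| ≤ (23 : ℕ) := by
  decide +kernel

theorem chk_e8_2 : ∀ s < 24,
    |∑ j : Fin 8, (![36, 53, 71, 105, 86, 66, 45, 23] : Fin 8 → ℤ) j * chevE8.cartan j (24 * 2 + s)| ≤ (23 : ℕ) := by
  decide +kernel

theorem chk_e8_3 : ∀ s < 24,
    |∑ j : Fin 8, (![36, 53, 71, 105, 86, 66, 45, 23] : Fin 8 → ℤ) j * chevE8.cartan j (24 * 3 + s)| ≤ (23 : ℕ) := by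
  decide +kernel

theorem chk_e8_4 : ∀ s < 24,
    |∑ j : Fin 8, (![36, 53, 71, 105, 86, 66, 45, 23] : Fin 8 → ℤ) j * chevE8.cartan j (24 * 4 + s)| ≤ (23 : ℕ) := by
  decide +kernel

theorem chk_e8_5 : ∀ s < 24,
    |∑ j : Fin 8, (![36, 53, 71, 105, 86, 66, 45, 23] : Fin 8 → ℤ) j * chevE8.cartan j (24 * 5 + s)| ≤ (23 : ℕ) := by
  decide +kernel

theorem chk_e8_6 : ∀ s < 24,
    |∑ j : Fin 8, (![36, 53, 71, 105, 86, 66, 45, 23] : Fin 8 → ℤ) j * chevE8.cartan j (24 * 6 + s)| ≤ (23 : ℕ) := by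
  decide +kernel

theorem chk_e8_7 : ∀ s < 24,
    |∑ j : Fin 8, (![36, 53, 71, 105, 86, 66, 45, 23] : Fin 8 → ℤ) j * chevE8.cartan j (24 * 7 + s)| ≤ (23 : ℕ) := by
  decide +kernel

theorem chk_e8_8 : ∀ s < 24,
    |∑ j : Fin 8, (![36, 53, 71, 105, 86, 66, 45, 23] : Fin 8 → ℤ) j * chevE8.cartan j (24 * 8 + s)| ≤ (23 : ℕ) := by
  decide +kernel

theorem chk_e8_9 : ∀ s < 24,
    |∑ j : Fin 8, (![36, 53, 71, 105, 86, 66, 45, 23] : Fin 8 → ℤ) j * chevE8.cartan j (24 * 9 + s)| ≤ (23 : ℕ) := by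
  decide +kernel

theorem chk_e8 : ∀ s < chevE8.nroots,
    |∑ j : Fin 8, (![36, 53, 71, 105, 86, 66, 45, 23] : Fin 8 → ℤ) j * chevE8.cartan j s| ≤ (23 : ℕ) := by
  have h : chevE8.nroots = 24 * 10 := by decide +kernel
  rw [h]
  refine of_parts (by norm_num) fun i hi => ?_
  interval_cases i
  · exact chk_e8_0
  · exact chk_e8_1
  · exact chk_e8_2
  · exact chk_e8_3
  · exact chk_e8_4
  · exact chk_e8_5
  · exact chk_e8_6
  · exact chk_e8_7
  · exact chk_e8_8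
  · exact chk_e8_9

/-- primes dividing `q (q ^ n - 1)` -/
theorem dvd_prod {p q n : ℕ} (hp : p.Prime) (h : (p - 1) ∣ n) : p ∣ q * (q ^ n - 1) :=
  hp.dvd_mul.2 (dvd_pow_sub hp h)


/-- **`XRow` for the exceptional Chevalley groups.** -/
theorem xRow_exc {r : ℕ} {K : Type*} [Group K] [Finite K] [IsSimpleGroup K] (h : Cfsg.IsExceptionalChevChar r K) :
    XRow r K := by
  obtain ⟨F, _, _, _, h⟩ := h
  have hq : 1 < Fintype.card F := Fintype.one_lt_card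
  generalize hqe : Fintype.card F = q at hq
  have h3q : 3 ∣ q * (q ^ 2 - 1) := dvd_prod Nat.prime_three (by norm_num)
  have h5q : 5 ∣ q * (q ^ 8 - 1) := dvd_prod Nat.prime_five (by norm_num)
  rcases h with ⟨h3, ⟨e⟩⟩ | ⟨⟨e⟩⟩ | ⟨⟨e⟩⟩ | ⟨⟨e⟩⟩ | ⟨⟨e⟩⟩
  · have hp : IsType chevG2 2 CoxeterMatrix.G₂ := by simp [IsType, typeList]
    have hN := Cfsg.Agent.S1059.result (F := F) hqe
    refine row hp e (fun _ => row_g2 h3) ![1, 2] 0 1 1 2 5 1 (by decide +kernel) (by decide +kernel)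
      (by decide +kernel) chk_g2 (by decide +kernel) (by norm_num) (by norm_num) (by norm_num)
      (fun h2 => small4 h2 ?_) ?_
    · rw [hN]
      refine h3q.trans ⟨q ^ 5 * (q ^ 6 - 1), by ring⟩
    · rw [hqe]
      exact qq_dvd (d := 1) (k := 6) (X := (q ^ 2 - 1) * (q ^ 6 - 1)) (by rw [one_mul, hN]; ring) (by norm_num)
        (Nat.coprime_one_left q)
  · have hp : IsType chevF4 4 CoxeterMatrix.F₄ := by simp [IsType, typeList]
    have hN := Cfsg.Agent.S1062.result (F := F) hqe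
    refine row hp e (fun _ => row_f4) ![5, 9, 13, 7] 1 0 0 7 5 1 (by decide +kernel) (by decide +kernel)
      (by decide +kernel) chk_f4 (by decide +kernel) (by norm_num) (by norm_num) (by norm_num)
      (fun h2 => small4 h2 ?_) ?_
    · rw [hN]
      refine h3q.trans ⟨q ^ 23 * (q ^ 6 - 1) * (q ^ 8 - 1) * (q ^ 12 - 1), by ring⟩
    · rw [hqe]
      exact qq_dvd (d := 1) (k := 24) (X := (q ^ 2 - 1) * (q ^ 6 - 1) * (q ^ 8 - 1) * (q ^ 12 - 1))
        (by rw [one_mul, hN]; ring) (by norm_num) (Nat.coprime_one_left q)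
  · have hp : IsType chevE6 6 CoxeterMatrix.E₆ := by simp [IsType, typeList]
    have hN := Cfsg.Agent.S1063.result (F := F) hqe
    refine row hp e (fun _ => row_e6) ![6, 8, 11, 15, 11, 6] 3 1 0 8 5 1 (by decide +kernel) (by decide +kernel)
      (by decide +kernel) chk_e6 (by decide +kernel) (by norm_num) (by norm_num) (by norm_num)
      (fun h2 => small4 h2 ?_) ?_
    · rcases Nat.prime_three.eq_one_or_self_of_dvd _ (Nat.gcd_dvd_left 3 (q - 1)) with h1 | h1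
      · rw [h1, one_mul] at hN
        rw [hN]
        refine h3q.trans ⟨q ^ 35 * (q ^ 5 - 1) * (q ^ 6 - 1) * (q ^ 8 - 1) * (q ^ 9 - 1) * (q ^ 12 - 1), by ring⟩
      · rw [h1] at hN
        have h4 : 3 * 3 ∣ 3 * Nat.card ↥(chevE6.group F) := by
          rw [hN]
          have h5 : 3 ∣ q * (q ^ 6 - 1) := dvd_prod Nat.prime_three (by norm_num)
          refine (mul_dvd_mul h3q h5).trans
            ⟨q ^ 34 * (q ^ 5 - 1) * (q ^ 8 - 1) * (q ^ 9 - 1) * (q ^ 12 - 1), by ring⟩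
        exact Nat.dvd_of_mul_dvd_mul_left (by norm_num) h4
    · rw [hqe]
      exact qq_dvd (k := 36) (X := (q ^ 2 - 1) * (q ^ 5 - 1) * (q ^ 6 - 1) * (q ^ 8 - 1) * (q ^ 9 - 1) * (q ^ 12 - 1))
        (by rw [hN]; ring) (by norm_num) (cop_gcd hq)
  · have hp : IsType chevE7 7 CoxeterMatrix.E₇ := by simp [IsType, typeList]
    have hN := Cfsg.Agent.S1064.result (F := F) hqe
    refine row hp e (fun _ => row_e7) ![14, 20, 27, 39, 31, 22, 12] 3 1 0 14 5 1 (by decide +kernel)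
      (by decide +kernel) (by decide +kernel) chk_e7 (by decide +kernel) (by norm_num) (by norm_num) (by norm_num)
      (fun h2 => small4 h2 ?_) ?_
    · have h4 : 3 ∣ Nat.gcd 2 (q - 1) * Nat.card ↥(chevE7.group F) := by
        rw [hN]
        refine h3q.trans ⟨q ^ 62 * (q ^ 6 - 1) * (q ^ 8 - 1) * (q ^ 10 - 1) * (q ^ 12 - 1) * (q ^ 14 - 1) *
          (q ^ 18 - 1), by ring⟩
      refine (Nat.prime_three.dvd_mul.1 h4).resolve_left fun h5 => ?_
      have h6 := h5.trans (Nat.gcd_dvd_left 2 (q - 1))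
      exact absurd h6 (by norm_num)
    · rw [hqe]
      exact qq_dvd (k := 63) (X := (q ^ 2 - 1) * (q ^ 6 - 1) * (q ^ 8 - 1) * (q ^ 10 - 1) * (q ^ 12 - 1) *
        (q ^ 14 - 1) * (q ^ 18 - 1)) (by rw [hN]; ring) (by norm_num) (cop_gcd hq)
  · have hp : IsType chevE8 8 CoxeterMatrix.E₈ := by simp [IsType, typeList]
    have hN := Cfsg.Agent.S1065.result (F := F) hqe
    refine row hp e (fun _ => row_e8) ![36, 53, 71, 105, 86, 66, 45, 23] 3 1 0 23 7 1 (by decide +kernel)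
      (by decide +kernel) (by decide +kernel) chk_e8 (by decide +kernel) (by norm_num) (by norm_num) (by norm_num)
      (fun h2 => small6 h2 ?_ ?_) ?_
    · rw [hN]
      refine h3q.trans ⟨q ^ 119 * (q ^ 8 - 1) * (q ^ 12 - 1) * (q ^ 14 - 1) * (q ^ 18 - 1) * (q ^ 20 - 1) *
        (q ^ 24 - 1) * (q ^ 30 - 1), by ring⟩
    · rw [hN]
      refine h5q.trans ⟨q ^ 119 * (q ^ 2 - 1) * (q ^ 12 - 1) * (q ^ 14 - 1) * (q ^ 18 - 1) * (q ^ 20 - 1) *
        (q ^ 24 - 1) * (q ^ 30 - 1), by ring⟩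
    · rw [hqe]
      exact qq_dvd (d := 1) (k := 120) (X := (q ^ 2 - 1) * (q ^ 8 - 1) * (q ^ 12 - 1) * (q ^ 14 - 1) *
        (q ^ 18 - 1) * (q ^ 20 - 1) * (q ^ 24 - 1) * (q ^ 30 - 1)) (by rw [one_mul, hN]; ring) (by norm_num)
        (Nat.coprime_one_left q)

end Cfsg.Agent.H138.XExc
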