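import Cfsg.Agent.H138.XChev

/-!
# `XRow` for subgroups of `D.group F` over a subfield (helper138, for S4938)

`Kt ≤ D.group F`, `#F = q ^ n`, `Kt` contains `x_{j₀}(s)` exactly for `s ^ q = s`, and `h(b)` for `b ^ q = b`, `h` the
torus of a coweight `c` (zero on `α_{j₀}`, positive on the other fundamental roots).
-/

set_option autoImplicit false
set_option linter.unusedSectionVars false

namespace Cfsg.Agent.H138.XSub

open CoxeterSystem Subgroup Cfsg Cfsg.Lie Cfsg.Lie.ChevalleyDatum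
open Cfsg.Agent.ChevalleyStructure Cfsg.Agent.ChevalleyStructure.Elts Cfsg.Agent.ChevalleyStructure.CoxeterGeom
  Cfsg.Agent.ChevalleyStructure.CoxeterGeomTypes Cfsg.Agent.ChevalleyStructure.NPerm
open Cfsg.Agent.Tits.Roots Cfsg.Agent.Tits.Core Cfsg.Agent.Nodes.Reps Cfsg.Agent.Nodes.BNOf
  Cfsg.Agent.Nodes.RGDChev Cfsg.Agent.Nodes.Bruhat
open Cfsg.Agent.KFacts.RgdField Cfsg.Agent.KFacts.RgdChevCoord Cfsg.Agent.BpExc.TorCent Cfsg.Agent.BpExc.TorChev
open Cfsg.Agent.BpExc.Tow Cfsg.Agent.BpExc.TowChev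
open Cfsg.Agent.H378.TorDual Cfsg.Agent.H378.TorChar Cfsg.Agent.GpExc.Field
open Cfsg.Agent.H730.Pair Cfsg.Agent.H967.CopMat Cfsg.Agent.H967.CopRow Cfsg.Agent.H138.XTor Cfsg.Agent.H138.XChev

universe u

section Fld

variable {F : Type u} [Field F] [Finite F]

/-- the size of the fixed field of an automorphism of order prime to the degree -/
theorem two_pow_le {q n t : ℕ} (hq : 1 < q) (hF : Nat.card F = q ^ n) (hn : 0 < n) (ht : t.Prime) (hnt : n < t)
    (σ : F ≃+* F) (hσ : orderOf σ = t) : 2 ^ t ≤ q := by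
  obtain ⟨r, hr, hc, k, hk0, hk⟩ := H378.SmallTor.exists_charP F
  have hrp : r.Prime := Fact.out
  -- `q` is a power of `r`
  have h1 : q ∣ r ^ k := by
    rw [← hk, hF]
    exact dvd_pow_self q hn.ne'
  obtain ⟨f, -, hf⟩ := (Nat.dvd_prime_pow hrp).1 h1
  have hf0 : f ≠ 0 := by
    rintro rfl
    rw [pow_zero] at hf
    omega
  -- the fixed field
  have h2 := card_Fx σ
  rw [hσ] at h2
  have h3 : Nat.card ↥(Fx σ) ∣ r ^ k := by
    rw [← hk, h2]
    exact dvd_pow_self _ ht.ne_zero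
  obtain ⟨g, -, hg⟩ := (Nat.dvd_prime_pow hrp).1 h3
  have h4 : r ^ (f * n) = r ^ (g * t) := by
    rw [pow_mul, ← hf, ← hF, h2, hg, pow_mul]
  have h5 : f * n = g * t := Nat.pow_right_injective hrp.two_le h4
  have h6 : t ∣ f := by
    have h7 : t ∣ f * n := ⟨g, by rw [h5, mul_comm]⟩
    refine (ht.dvd_mul.1 h7).resolve_right fun h8 => ?_
    have := Nat.le_of_dvd hn h8
    omega
  calc 2 ^ t ≤ 2 ^ f := Nat.pow_le_pow_right two_pos (Nat.le_of_dvd (Nat.pos_of_ne_zero hf0) h6)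
    _ ≤ r ^ f := Nat.pow_le_pow_left hrp.two_le f
    _ = q := hf.symm

/-- an automorphism fixing an element of order `q - 1` -/
theorem orderOf_le_of_fix {q n : ℕ} (hq : 1 < q) (hF : Nat.card F = q ^ n) {b : Fˣ} (hb : orderOf b = q - 1)
    (τ : F ≃+* F) (hτ : τ b = b) : orderOf τ ≤ n := by
  have h1 : q ≤ Nat.card ↥(Fx τ) := by
    let b' : (↥(Fx τ))ˣ := Units.mk0 ⟨(b : F), hτ⟩ (by
      intro h
      exact b.ne_zero (congrArg Subtype.val h))
    have h2 : orderOf b' = q - 1 := by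
      rw [← hb, ← orderOf_injective (Units.map ((Fx τ).subtype : ↥(Fx τ) →* F))
        (Units.map_injective (Fx τ).subtype.injective) b']
      congr 1
      exact Units.ext rfl
    have h3 : orderOf b' ∣ Nat.card (↥(Fx τ))ˣ := orderOf_dvd_natCard b'
    rw [h2, Nat.card_units] at h3
    have h4 : 1 < Nat.card ↥(Fx τ) := Finite.one_lt_card
    have h5 := Nat.le_of_dvd (by omega) h3
    omega
  have h2 : q ^ orderOf τ ≤ q ^ n := by
    rw [← hF, card_Fx τ]
    exact Nat.pow_le_pow_left h1 _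
  exact (Nat.pow_le_pow_iff_right hq).1 h2

theorem exists_unit {q n : ℕ} (hq : 1 < q) (hF : Nat.card F = q ^ n) (hn : 0 < n) :
    ∃ (b : Fˣ) (N : ℕ), (∀ x : Fˣ, x ∈ zpowers b) ∧ q ^ n - 1 = (q - 1) * N ∧ orderOf (b ^ N) = q - 1 := by
  obtain ⟨b, hb⟩ := IsCyclic.exists_generator (α := Fˣ)
  have hob : orderOf b = q ^ n - 1 := by rw [orderOf_eq_card_of_forall_mem_zpowers hb, Nat.card_units, hF]
  obtain ⟨N, hN⟩ : q - 1 ∣ q ^ n - 1 := by
    have := Nat.sub_dvd_pow_sub_pow q 1 n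
    rwa [one_pow] at this
  refine ⟨b, N, hb, hN, ?_⟩
  have hN0 : N ≠ 0 := by
    rintro rfl
    rw [mul_zero] at hN
    have : q ^ 1 ≤ q ^ n := Nat.pow_le_pow_right (by omega) hn
    rw [pow_one] at this
    omega
  rw [orderOf_pow' b hN0, hob, hN, Nat.gcd_eq_right (Dvd.intro_left _ rfl)]
  exact Nat.mul_div_cancel _ (Nat.pos_of_ne_zero hN0)

end Fld

variable {D : ChevalleyDatum} {l : ℕ} {M : CoxeterMatrix (Fin l)} (hp : IsType D l M) {F : Type u} [Field F]

include hp in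
/-- **`XRow` for `Kt ≤ D.group F`.** -/
theorem xRow [Finite F] {r : ℕ} [Fact r.Prime] [CharP F r] [Finite ↥(D.group F)] {Kt : Subgroup (GL D.Idx F)}
    (hKG : Kt ≤ D.group F) (R : Row Kt) {q n : ℕ} (hq1 : 1 < q) (hF : Nat.card F = q ^ n) (hn0 : 0 < n)
    (c : Fin l → ℤ) (j₀ i₁ : Fin l) (m t₀ : ℕ) (hnt : n < t₀)
    (hx : ∀ s : F, xG hp.inList (D.simple j₀) s ∈ Kt ↔ s ^ q = s) (hqc : Nat.card {s : F // s ^ q = s} = q)
    (he : ∀ b : Fˣ, b ^ q = b → ((tH hp c b).1 : GL D.Idx F) ∈ Kt)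
    (hy : ∃ y : ↥(TT D F), (y.1 : GL D.Idx F) ∈ Kt ∧ orderOf (uch hp j₀ y) = q - 1)
    (h0 : ∑ j : Fin l, c j * D.cartan j (D.simple j₀) = 0)
    (hpos : ∀ i, i ≠ j₀ → 0 < ∑ j : Fin l, c j * D.cartan j (D.simple i))
    (hm : ∀ s < D.nroots, |∑ j : Fin l, c j * D.cartan j s| ≤ m)
    (hi : ∑ j : Fin l, c j * D.cartan j (D.simple i₁) = 1) (ht : 2 * m + 1 < 2 ^ t₀)
    (hsm : ∀ p, p.Prime → p < t₀ → p ∣ Nat.card ↥Kt)
    (hqq : q * q ∣ Nat.card ↥Kt) {m' : ℕ}
    (hm1 : Nat.card ↥(D.diagonalSubgroup F ⊓ Kt : Subgroup (GL D.Idx F)) * m' ∣ Nat.card ↥Kt)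
    (hm2 : ∀ p, p.Prime → p ∣ Nat.card ↥(D.diagonalSubgroup F ⊓ Kt : Subgroup (GL D.Idx F)) → p ∣ q - 1 ∨ p ∣ m')
    (hm3 : ∀ p, p.Prime → ¬ (p ∣ m' ∧ p ∣ q)) : XRow r ↥Kt := by
  intro hcop
  have hKfin : Finite ↥Kt := Finite.of_injective _ (Subgroup.inclusion_injective hKG)
  -- the size of `q`
  have hq : 2 ^ t₀ ≤ q := by
    obtain ⟨t, htp, htd, α, hα⟩ := hcop
    obtain ⟨e', σ, -, h2⟩ := R.exists_equiv_one (MulEquiv.refl ↥Kt) α (by
      rw [hα]
      exact (Nat.Prime.coprime_iff_not_dvd htp).2 htd)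
    have ht0 : t₀ ≤ t := by
      by_contra h
      exact htd (hsm t htp (by omega))
    exact (Nat.pow_le_pow_right two_pos ht0).trans (two_pow_le hq1 hF hn0 htp (by omega) σ (h2.trans hα))
  let cs := M.toCoxeterSystem
  have hW : Finite M.Group := finite_W hp cs
  have RG := rgd (K := F) hp cs r
  have C := coords (K := F) hp cs r
  have hjr := isRoot_sr cs hp.isCartan j₀
  have CX := C.coord _ hjr
  obtain ⟨b', N, hb', -, hob⟩ := exists_unit (F := F) hq1 hF hn0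
  obtain ⟨b, hbe⟩ : ∃ b, b = b' ^ N := ⟨_, rfl⟩
  rw [← hbe] at hob
  have hbq : b ^ q = b := by
    have h1 : b ^ (q - 1) = 1 := by rw [← hob]; exact pow_orderOf_eq_one b
    calc b ^ q = b ^ (q - 1) * b := by
          rw [← pow_succ]
          congr 1
          omega
      _ = b := by rw [h1, one_mul]
  have hzero : ∀ {m₁ : ℕ}, m₁ + 1 < q → ∀ {x : ℤ}, |x| ≤ m₁ → b ^ x = 1 → x = 0 := by
    intro m₁ hm₁ x hx h
    refine Int.eq_zero_of_abs_lt_dvd (orderOf_dvd_iff_zpow_eq_one.2 h) ?_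
    rw [hob]
    have : ((q - 1 : ℕ) : ℤ) = (q : ℤ) - 1 := by
      rw [Nat.cast_sub (by omega), Nat.cast_one]
    omega
  -- the functional
  have hfsr : ∀ i, fn D l c (sr i) = ∑ j : Fin l, c j * D.cartan j (D.simple i) := fn_sr D l c
  have hfm : ∀ a, IsRoot cs hp.isCartan a → |fn D l c a| ≤ m := by
    intro a ha
    obtain ⟨s, hs, rfl⟩ := (isRoot_iff hp cs a).1 ha
    rw [fn_apply, Finset.sum_congr rfl fun j _ => by rw [pairing_vec hp j hs]]
    exact hm s hs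
  -- the elements in `D.group F`
  set e : ↥(D.group F) := (tH hp c b).1 with hedef
  have heT : e ∈ TT D F := (tH hp c b).2
  set u : ↥(D.group F) := xc hp (sr j₀) 1 with hudef
  have huX : u ∈ XX D l F (sr j₀) := (CX.mem _).2 ⟨1, rfl⟩
  have hou : orderOf u = r := orderOf_xc hp cs r hjr
  have hu1 : u ≠ 1 := by
    intro h
    rw [h, orderOf_one] at hou
    exact (Fact.out : r.Prime).one_lt.ne hou
  have hch : ∀ a, IsRoot cs hp.isCartan a → ch hp a e = ((b ^ fn D l c a : Fˣ) : F) := fun a ha =>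
    ch_tH hp cs r c b ha
  have hf1 : ∀ a, IsRoot cs hp.isCartan a → ch hp a e = 1 → fn D l c a = 0 := by
    intro a ha h
    rw [hch a ha] at h
    exact hzero (m₁ := m) (by omega) (hfm a ha) (Units.ext h)
  have hf2 : ∀ a, IsRoot cs hp.isCartan a → ∀ w, ch hp (rep cs hp.isCartan w a) e = ch hp a e →
      fn D l c (rep cs hp.isCartan w a) = fn D l c a := by
    intro a ha w h
    rw [hch a ha, hch _ (ha.act w)] at h
    have h1 := hfm a ha
    have h2 := hfm _ (ha.act w)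
    have h3 : fn D l c (rep cs hp.isCartan w a) - fn D l c a = 0 := by
      refine hzero (m₁ := 2 * m) (by omega) ?_ ?_
      · have h4 := abs_sub (fn D l c (rep cs hp.isCartan w a)) (fn D l c a)
        push_cast
        linarith
      · rw [zpow_sub, Units.ext h, mul_inv_cancel]
    exact sub_eq_zero.1 h3
  -- orders
  have hrF : r ∣ Nat.card F := by
    obtain ⟨p', hp'f, hp'c, n', hn', hcard⟩ := H378.SmallTor.exists_charP F
    have hrp : p' = r := CharP.eq F hp'c ‹CharP F r›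
    rw [hrp] at hcard
    rw [hcard]
    exact dvd_pow_self _ hn'.ne'
  have hTr : ∀ t ∈ TT D F, (orderOf t).Coprime r := by
    intro t ht
    have h1 : orderOf t ∣ Nat.card F - 1 := orderOf_dvd_of_pow_eq_one (TT_pow hp ht)
    refine Nat.Coprime.coprime_dvd_left h1 ?_
    rw [Nat.coprime_comm, Nat.Prime.coprime_iff_not_dvd (Fact.out : r.Prime)]
    intro h2
    have h4 := Nat.dvd_sub hrF h2
    have h5 : Nat.card F - (Nat.card F - 1) = 1 := by
      have := Finite.one_lt_card (α := F)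
      omega
    rw [h5] at h4
    exact (Fact.out : r.Prime).one_lt.ne' (Nat.dvd_one.1 h4)
  have hcomm : Commute e u := by
    have h1 := CX.act e heT 1
    rw [hch _ hjr, hfsr, h0, zpow_zero, Units.val_one, one_mul] at h1
    exact mul_inv_eq_iff_eq_mul.1 h1
  have hcop' : (orderOf e).Coprime (orderOf u) := by
    rw [hou]
    exact hTr e heT
  -- the elements in `Kt`
  have heK : (e : GL D.Idx F) ∈ Kt := he b hbq
  have huK : (u : GL D.Idx F) ∈ Kt := by
    have h1 : (u : GL D.Idx F) = xG hp.inList (D.simple j₀) 1 := by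
      rw [hudef, ← vec_simple hp j₀]
      exact coe_xc hp (simple_lt hp.inList (lt_rank hp j₀)) 1
    rw [h1, hx, one_pow]
  let ι : ↥Kt →* ↥(D.group F) := Subgroup.inclusion hKG
  have hι : Function.Injective ι := Subgroup.inclusion_injective hKG
  obtain ⟨e₁, he₁⟩ : ∃ e₁ : ↥Kt, ι e₁ = e := ⟨⟨e, heK⟩, rfl⟩
  obtain ⟨u₁, hu₁⟩ : ∃ u₁ : ↥Kt, ι u₁ = u := ⟨⟨u, huK⟩, rfl⟩
  have hcomm₁ : Commute e₁ u₁ := hι (by rw [map_mul, map_mul, he₁, hu₁]; exact hcomm)
  have hou₁ : orderOf u₁ = r := by rw [← orderOf_injective ι hι, hu₁, hou]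
  have hcop₁ : (orderOf e₁).Coprime (orderOf u₁) := by
    rw [← orderOf_injective ι hι e₁, ← orderOf_injective ι hι u₁, he₁, hu₁]
    exact hcop'
  have heu : e₁ ∈ zpowers (e₁ * u₁) := mem_zpowers_mul hcomm₁ hcop₁
  have hueu : u₁ ∈ zpowers (e₁ * u₁) := by
    rw [hcomm₁.eq]
    exact mem_zpowers_mul hcomm₁.symm hcop₁.symm
  -- genericity
  have hfa : ∀ τ : F ≃+* F, ι (fieldAut R.stab τ e₁) = (tH hp c (Units.map (τ : F →* F) b)).1 := by
    intro τ
    have h1 : ι (fieldAut R.stab τ e₁) = emb hp.inList (τ : F →+* F) (ι e₁) := by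
      apply Subtype.ext
      apply Units.ext
      rfl
    rw [h1, he₁, hedef, emb_tH]
    rfl
  have hgen : Gen ↥Kt e₁ := by
    refine Gen.of_conjIn (ConjIn.of_row R) ?_ ?_
    · rintro _ ⟨τ, rfl⟩
      obtain ⟨k, hk⟩ := hb' (Units.map (τ : F →* F) b')
      have hk' : Units.map (τ : F →* F) b = b ^ k := by
        have hk2 : Units.map (τ : F →* F) b' = b' ^ k := hk.symm
        rw [hbe, map_pow, hk2, ← zpow_natCast, ← zpow_natCast, ← zpow_mul, ← zpow_mul, mul_comm]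
      refine ⟨k, hι ?_⟩
      rw [hfa, hk']
      show ι (e₁ ^ k) = _
      rw [map_zpow ι, he₁, map_zpow (tH hp c)]
      rfl
    · rintro t htp htd _ ⟨τ, rfl⟩ hot hfix
      have h1 := hfa τ
      rw [hfix, he₁] at h1
      have h2 : tH hp c b = tH hp c (Units.map (τ : F →* F) b) := Subtype.ext h1
      have h3 : tH hp c (b⁻¹ * Units.map (τ : F →* F) b) = 1 := by
        rw [map_mul, map_inv, ← h2, inv_mul_cancel]
      have h4 := tH_ker hp h3 i₁
      rw [hfsr, hi, zpow_one] at h4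
      have h5 : Units.map (τ : F →* F) b = b := (eq_of_inv_mul_eq_one h4).symm
      have h6 := orderOf_le_of_fix hq1 hF hob τ (congrArg Units.val h5)
      have h7 : t ∣ orderOf τ := by
        rw [← hot]
        exact orderOf_map_dvd _ τ
      have hfinA : Finite (F ≃+* F) :=
        Finite.of_injective (fun f : F ≃+* F => (f : F → F)) DFunLike.coe_injective
      have h8 := (Nat.le_of_dvd (orderOf_pos τ) h7).trans h6
      exact htd (hsm t htp (by omega))
  refine ⟨e₁ * u₁, ?_, hgen.mul hcomm₁ hcop₁, ?_⟩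
  · rw [← hou₁]
    exact orderOf_dvd_of_mem_zpowers hueu
  -- the subgroups of `Kt`
  let V₀ : Subgroup ↥Kt := (XX D l F (sr j₀)).comap ι
  let T₁ : Subgroup ↥Kt := (TT D F).comap ι
  let χ : ↥T₁ →* Fˣ := (uch (k := F) hp j₀).comp
    ((ι.comp T₁.subtype).codRestrict (TT D F) fun t => t.2)
  have hχ : ∀ t : ↥T₁, ((χ t : Fˣ) : F) = ch hp (sr j₀) (ι t.1) := fun t => rfl
  have hV : Nat.card ↥V₀ = q := by
    rw [← hqc]
    have hc : ∀ s : F, ((xc hp (sr j₀) s : ↥(D.group F)) : GL D.Idx F) = xG hp.inList (D.simple j₀) s := by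
      intro s
      rw [← vec_simple hp j₀]
      exact coe_xc hp (simple_lt hp.inList (lt_rank hp j₀)) s
    refine (Nat.card_congr (Equiv.ofBijective (fun s : {s : F // s ^ q = s} =>
      (⟨⟨(xc hp (sr j₀) s.1 : ↥(D.group F)), by rw [hc]; exact (hx s.1).2 s.2⟩,
        (CX.mem _).2 ⟨s.1, rfl⟩⟩ : ↥V₀)) ⟨?_, ?_⟩)).symm
    · intro s s' h
      have h1 := congrArg (fun z : ↥V₀ => ι z.1) h
      exact Subtype.ext (CX.inj h1)
    · rintro ⟨y, hy'⟩
      obtain ⟨s, hs⟩ := (CX.mem (ι y)).1 hy'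
      have h1 : xG hp.inList (D.simple j₀) s ∈ Kt := by
        rw [← hc, hs]
        exact y.2
      refine ⟨⟨s, (hx s).1 h1⟩, Subtype.ext (Subtype.ext ?_)⟩
      have h2 : ((xc hp (sr j₀) s : ↥(D.group F)) : GL D.Idx F) = ((ι y : ↥(D.group F)) : GL D.Idx F) :=
        congrArg (fun z : ↥(D.group F) => (z : GL D.Idx F)) hs
      exact h2
  have hT : Nat.card ↥T₁ = Nat.card ↥(D.diagonalSubgroup F ⊓ Kt : Subgroup (GL D.Idx F)) := by
    refine Nat.card_congr
      { toFun := fun t => ⟨(t.1 : GL D.Idx F), t.2, t.1.2⟩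
        invFun := fun g => ⟨⟨g.1, g.2.2⟩, g.2.1⟩
        left_inv := fun _ => rfl
        right_inv := fun _ => rfl }
  have hker : Nat.card ↥χ.ker * (q - 1) ∣ Nat.card ↥T₁ := by
    rw [← χ.ker.card_mul_index, Subgroup.index_ker]
    refine mul_dvd_mul_left _ ?_
    obtain ⟨y, hyK, hyo⟩ := hy
    rw [← hyo]
    have h1 : uch hp j₀ y ∈ χ.range := ⟨⟨⟨y.1, hyK⟩, y.2⟩, rfl⟩
    exact Subgroup.orderOf_dvd_natCard _ h1
  have hcm : ∀ (v : ↥V₀) (t : ↥χ.ker), Commute (V₀.subtype v) ((T₁.subtype.comp χ.ker.subtype) t) := by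
    rintro ⟨v, hv⟩ ⟨t, ht'⟩
    obtain ⟨s, hs⟩ := (CX.mem (ι v)).1 hv
    apply hι
    rw [map_mul, map_mul]
    show ι v * ι t.1 = ι t.1 * ι v
    rw [← hs]
    have h1 := CX.act (ι t.1) t.2 s
    have h2 : ch hp (sr j₀) (ι t.1) = 1 := by
      rw [← hχ, (MonoidHom.mem_ker).1 ht']
      rfl
    rw [h2, one_mul] at h1
    exact (mul_inv_eq_iff_eq_mul.1 h1).symm
  let Φ := MonoidHom.noncommCoprod V₀.subtype (T₁.subtype.comp χ.ker.subtype) hcm
  have hle : centralizer ({e₁ * u₁} : Set ↥Kt) ≤ Φ.range := by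
    intro g hg
    have hg' : g * (e₁ * u₁) = (e₁ * u₁) * g := (mem_centralizer_singleton_iff.1 hg)
    have hz : ∀ z ∈ zpowers (e₁ * u₁), ι g * ι z = ι z * ι g := by
      rintro z ⟨n', rfl⟩
      rw [← map_mul, ← map_mul]
      exact congrArg ι (Commute.zpow_right (show Commute g (e₁ * u₁) from hg') n').eq
    obtain ⟨v, hv, t, htT, hct, hgvt⟩ := XCen.exists_of_comm RG C (j₀ := j₀) (f := fn D l c)
      (by rw [hfsr]; exact h0) (fun j hj' => by rw [hfsr]; exact hpos j hj') heT hf1 hf2 huX hu1 (g := ι g)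
      (by rw [GG_top hp cs]; exact mem_top _) (by rw [← he₁]; exact hz e₁ heu) (by rw [← hu₁]; exact hz u₁ hueu)
    obtain ⟨s, rfl⟩ := (CX.mem v).1 hv
    have hvt : Commute (xc hp (sr j₀) s) t := by
      have h1 := CX.act t htT s
      rw [hct, one_mul] at h1
      exact (mul_inv_eq_iff_eq_mul.1 h1).symm
    have hvo : (orderOf (xc hp (sr j₀) s : ↥(D.group F))).Coprime (orderOf t) := by
      have h1 : (xc hp (sr j₀) s : ↥(D.group F)) ^ r = 1 := by
        have h2 : ∀ n' : ℕ, (xc hp (sr j₀) s : ↥(D.group F)) ^ n' = xc hp (sr j₀) (n' * s) := by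
          intro n'
          induction n' with
          | zero => rw [pow_zero, Nat.cast_zero, zero_mul, CX.zero]
          | succ n' ih => rw [pow_succ, ih, Nat.cast_succ, add_mul, one_mul, CX.add]
        rw [h2, CharP.cast_eq_zero, zero_mul, CX.zero]
      exact Nat.Coprime.coprime_dvd_left (orderOf_dvd_of_pow_eq_one h1) (hTr t htT).symm
    have hvz : (xc hp (sr j₀) s : ↥(D.group F)) ∈ zpowers (ι g) := by
      rw [hgvt]
      exact mem_zpowers_mul hvt hvo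
    obtain ⟨k, hk⟩ := hvz
    have hk' : ι (g ^ k) = xc hp (sr j₀) s := by rw [map_zpow]; exact hk
    have hvV : g ^ k ∈ V₀ := Subgroup.mem_comap.2 (by rw [hk']; exact hv)
    have htι : ι ((g ^ k)⁻¹ * g) = t := by
      rw [map_mul, map_inv, hk', hgvt, inv_mul_cancel_left]
    have htT₁ : (g ^ k)⁻¹ * g ∈ T₁ := Subgroup.mem_comap.2 (by rw [htι]; exact htT)
    refine ⟨(⟨g ^ k, hvV⟩, ⟨⟨(g ^ k)⁻¹ * g, htT₁⟩, ?_⟩), ?_⟩
    · rw [MonoidHom.mem_ker]
      apply Units.ext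
      rw [hχ]
      show ch hp (sr j₀) (ι ((g ^ k)⁻¹ * g)) = 1
      rw [htι, hct]
    · show g ^ k * ((g ^ k)⁻¹ * g) = g
      rw [mul_inv_cancel_left]
  have hcard : Nat.card ↥(centralizer ({e₁ * u₁} : Set ↥Kt)) ∣ q * Nat.card ↥χ.ker := by
    refine (Subgroup.card_dvd_of_le hle).trans ((Subgroup.card_range_dvd Φ).trans ?_)
    rw [Nat.card_prod, hV]
  intro p hpp hpd
  have hkT : Nat.card ↥χ.ker ∣ Nat.card ↥T₁ := (Dvd.intro _ rfl).trans hker
  obtain ⟨n', hn1, hn2⟩ := exists_pow (m := m') hpp hq1 (Nat.card_pos (α := ↥χ.ker)) hqq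
    (hker.trans (Subgroup.card_subgroup_dvd_card T₁))
    ((mul_dvd_mul_right (hT ▸ hkT) m').trans hm1)
    (fun h => hm2 p hpp (hT ▸ (h.trans hkT))) (hm3 p hpp) hpd
  exact dvd_index_of_not_dvd hpp hn1 fun h => hn2 (h.trans hcard)

end Cfsg.Agent.H138.XSub
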