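import Cfsg.Agent.H378.TorChar
import Cfsg.Agent.H378.SmallTor
import Cfsg.Agent.H138.XCen

/-!
# Tori of `D.group F` given by a coweight (helper138, for S4938)

* `fn D l c` : the functional `x ↦ ∑ c_j ⟨x, α_j^∨⟩`;
* `tH hp c : Fˣ →* D.group F`, `ch_tH : ch hp a (tH u) = u ^ fn a`; `emb_tH` : compatibility with field maps;
* `card_tor` : `|T| = |T₀| * (q - 1)`, `T₀` the kernel of a simple root with a neighbour joined by `-1`;
* `exists_pow` : the prime divisors of `N`, `q * q ∣ N`, `a * (q - 1) ∣ N`, against those of `q * a`.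
-/

set_option autoImplicit false
set_option linter.unusedSectionVars false

namespace Cfsg.Agent.H138.XTor

open CoxeterSystem Subgroup Cfsg Cfsg.Lie Cfsg.Lie.ChevalleyDatum
open Cfsg.Agent.ChevalleyStructure Cfsg.Agent.ChevalleyStructure.Elts Cfsg.Agent.ChevalleyStructure.CoxeterGeom
  Cfsg.Agent.ChevalleyStructure.CoxeterGeomTypes Cfsg.Agent.ChevalleyStructure.NPerm
open Cfsg.Agent.Tits.Roots Cfsg.Agent.Tits.Core Cfsg.Agent.Nodes.Reps Cfsg.Agent.Nodes.BNOf
  Cfsg.Agent.Nodes.RGDChev Cfsg.Agent.Nodes.Bruhat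
open Cfsg.Agent.KFacts.RgdField Cfsg.Agent.KFacts.RgdChevCoord Cfsg.Agent.BpExc.TorCent Cfsg.Agent.BpExc.TorChev
open Cfsg.Agent.BpExc.Tow Cfsg.Agent.BpExc.TowChev
open Cfsg.Agent.H378.TorDual Cfsg.Agent.H378.TorChar Cfsg.Agent.GpExc.Field

universe u

section Fn

/-- the functional `x ↦ ∑ c_j ⟨x, α_j^∨⟩` -/
def fn (D : ChevalleyDatum) (l : ℕ) (c : Fin l → ℤ) : (Fin l → ℤ) →+ ℤ where
  toFun x := ∑ j, c j * pairing (cartanOf D l) j x
  map_zero' := by simp [pairing]
  map_add' x y := by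
    rw [← Finset.sum_add_distrib]
    exact Finset.sum_congr rfl fun j _ => by rw [pairing_add, mul_add]

theorem fn_apply (D : ChevalleyDatum) (l : ℕ) (c : Fin l → ℤ) (x : Fin l → ℤ) :
    fn D l c x = ∑ j, c j * pairing (cartanOf D l) j x := rfl

theorem fn_sr (D : ChevalleyDatum) (l : ℕ) (c : Fin l → ℤ) (i : Fin l) :
    fn D l c (sr i) = ∑ j : Fin l, c j * D.cartan j (D.simple i) := by
  rw [fn_apply]
  refine Finset.sum_congr rfl fun j _ => ?_
  unfold pairing
  rw [Finset.sum_eq_single i]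
  · rw [sr_self, mul_one]
    rfl
  · intro k _ hk
    rw [sr_ne hk, mul_zero]
  · intro hi
    exact absurd (Finset.mem_univ i) hi

variable {l : ℕ} {F : Type u} [Field F]

/-- the character `x ↦ u ^ f x` -/
def chf (f : (Fin l → ℤ) →+ ℤ) : Fˣ →* Ch l F where
  toFun u :=
    { toFun := fun x => u ^ f (Multiplicative.toAdd x)
      map_one' := by rw [toAdd_one, map_zero, zpow_zero]
      map_mul' := fun x y => by rw [toAdd_mul, map_add, zpow_add] }
  map_one' := MonoidHom.ext fun x => one_zpow _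
  map_mul' u v := MonoidHom.ext fun x => mul_zpow _ _ _

theorem chf_apply (f : (Fin l → ℤ) →+ ℤ) (u : Fˣ) (x : Fin l → ℤ) : chf f u (Multiplicative.ofAdd x) = u ^ f x := rfl

end Fn

section Tor

variable {D : ChevalleyDatum} {l : ℕ} {M : CoxeterMatrix (Fin l)} (hp : IsType D l M) {F : Type u} [Field F]

theorem chf_mem (c : Fin l → ℤ) (u : Fˣ) : chf (fn D l c) u ∈ (tchar (k := F) hp).range := by
  have h1 : chf (fn D l c) u = ∏ j : Fin l, tchar (k := F) hp
      ⟨hc hp j ((u ^ c j : Fˣ) : F), hc_mem hp j (Units.ne_zero _)⟩ := by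
    refine ext_sr fun i => Units.ext ?_
    rw [chf_apply, MonoidHom.finsetProd_apply, Units.coe_prod, fn_apply]
    have h2 : ∀ j : Fin l, (((tchar (k := F) hp ⟨hc hp j ((u ^ c j : Fˣ) : F), hc_mem hp j (Units.ne_zero _)⟩)
        (Multiplicative.ofAdd (sr i)) : Fˣ) : F) = ((u ^ (c j * pairing (cartanOf D l) j (sr i)) : Fˣ) : F) := by
      intro j
      rw [tchar_sr, ← vec_simple hp i, ch_hc hp j (Units.ne_zero _) (simple_lt hp.inList (lt_rank hp i)),
        pairing_vec hp j (simple_lt hp.inList (lt_rank hp i)), zpow_mul]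
      rw [Units.val_zpow_eq_zpow_val (u ^ c j)]
    rw [Finset.prod_congr rfl fun j _ => h2 j, ← Units.coe_prod]
    congr 1
    generalize (Finset.univ : Finset (Fin l)) = s
    induction s using Finset.induction_on with
    | empty => rw [Finset.sum_empty, Finset.prod_empty, zpow_zero]
    | insert a s ha ih => rw [Finset.sum_insert ha, Finset.prod_insert ha, zpow_add, ih]
  rw [h1]
  exact Subgroup.prod_mem _ fun j _ => ⟨_, rfl⟩

/-- **The torus of a coweight.** -/
noncomputable def tH (c : Fin l → ℤ) : Fˣ →* ↥(TT D F) :=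
  ((MonoidHom.ofInjective (tchar_injective (k := F) hp)).symm : _ →* ↥(TT D F)).comp
    ((chf (fn D l c)).codRestrict _ (chf_mem hp c))

theorem tchar_tH (c : Fin l → ℤ) (u : Fˣ) : tchar hp (tH hp c u) = chf (fn D l c) u := by
  have h1 : MonoidHom.ofInjective (tchar_injective (k := F) hp) (tH hp c u) =
      ((chf (fn D l c)).codRestrict _ (chf_mem hp c)) u :=
    (MonoidHom.ofInjective (tchar_injective (k := F) hp)).apply_symm_apply _
  exact congrArg Subtype.val h1

theorem tH_eq {c : Fin l → ℤ} {u : Fˣ} {t : ↥(TT D F)}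
    (h : ∀ i, ch hp (sr i) t.1 = ((u ^ fn D l c (sr i) : Fˣ) : F)) : t = tH hp c u := by
  apply tchar_injective hp
  rw [tchar_tH]
  refine ext_sr fun i => Units.ext ?_
  rw [tchar_sr, h, chf_apply]

theorem ch_tH_sr (c : Fin l → ℤ) (u : Fˣ) (i : Fin l) :
    ch hp (sr i) (tH hp c u).1 = ((u ^ fn D l c (sr i) : Fˣ) : F) := by
  rw [← tchar_sr, tchar_tH, chf_apply]

theorem ch_tH [Finite F] {W : Type*} [Group W] (cs : CoxeterSystem M W) (r : ℕ) [Fact r.Prime] [CharP F r]
    (c : Fin l → ℤ) (u : Fˣ) {a : Fin l → ℤ} (ha : IsRoot cs hp.isCartan a) :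
    ch hp a (tH hp c u).1 = ((u ^ fn D l c a : Fˣ) : F) := by
  rw [← tchar_apply hp cs (H378.SmallTor.locFin_of_finite F) r _ ha, tchar_tH, chf_apply]

/-- compatibility with field maps -/
theorem emb_tH {L : Type u} [Field L] (f : F →+* L) (c : Fin l → ℤ) (u : Fˣ) :
    emb hp.inList f (tH hp c u).1 = (tH hp c (Units.map (f : F →* L) u)).1 := by
  have hmem : emb hp.inList f (tH hp c u).1 ∈ TT D L := emb_T hp f ⟨_, (tH hp c u).2, rfl⟩
  have h1 : (⟨emb hp.inList f (tH hp c u).1, hmem⟩ : ↥(TT D L)) = tH hp c (Units.map (f : F →* L) u) := by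
    refine tH_eq hp fun i => ?_
    have h2 := emb_ch hp f (simple_lt hp.inList (lt_rank hp i)) (tH hp c u).2
    rw [vec_simple hp i, ch_tH_sr] at h2
    refine h2.trans ?_
    rw [← map_zpow]
    rfl
  exact congrArg Subtype.val h1

/-- the kernel -/
theorem tH_ker {c : Fin l → ℤ} {u : Fˣ} (h : tH hp c u = 1) (i : Fin l) : u ^ fn D l c (sr i) = 1 := by
  have h1 := ch_tH_sr hp c u i
  rw [h] at h1
  have h2 : ch hp (sr i) ((1 : ↥(TT D F)) : ↥(D.group F)) = 1 := by
    rw [← vec_simple hp i]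
    exact ch_one' hp (simple_lt hp.inList (lt_rank hp i))
  rw [h2] at h1
  exact Units.ext h1.symm

end Tor

section Card

variable {D : ChevalleyDatum} {l : ℕ} {M : CoxeterMatrix (Fin l)} (hp : IsType D l M) {F : Type u} [Field F]

include hp in
/-- the elements of the torus have order dividing `q - 1` -/
theorem TT_pow [Finite F] {g : ↥(D.group F)} (hg : g ∈ TT D F) : g ^ (Nat.card F - 1) = 1 := by
  have := Fintype.ofFinite F
  rw [Subgroup.mem_subgroupOf] at hg
  obtain ⟨χ, hχ⟩ := HMatDiagAll.mem_torus.1 (HMatDiagAll.diagonalSubgroup_le_torus hp.inList hg)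
  have hne : ∀ s, χ s ≠ 0 := by
    intro s h0
    have h1 := (g : GL D.Idx F).isUnit
    rw [hχ, Matrix.isUnit_iff_isUnit_det, Matrix.det_diagonal, isUnit_iff_ne_zero, Finset.prod_ne_zero_iff] at h1
    exact h1 (Sum.inr s) (Finset.mem_univ _) h0
  apply Subtype.ext
  apply Units.ext
  rw [Subgroup.coe_pow, Units.val_pow_eq_pow_val, hχ, Matrix.diagonal_pow, Subgroup.coe_one, Units.val_one,
    ← Matrix.diagonal_one]
  congr 1
  funext i
  rw [Nat.card_eq_fintype_card]
  rcases i with i | i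
  · exact one_pow _
  · exact FiniteField.pow_card_sub_one_eq_one _ (hne i)

/-- **The kernel of a fundamental root in the torus.** -/
theorem card_tor [Finite F] {j₀ j₁ : Fin l} (hj : D.cartan j₁ (D.simple j₀) = -1) :
    Nat.card ↥(TT D F) = Nat.card ↥((uch (k := F) hp j₀).ker) * (Nat.card F - 1) := by
  have hsurj : Function.Surjective (uch (k := F) hp j₀) := by
    intro y
    refine ⟨⟨hc hp j₁ ((y⁻¹ : Fˣ) : F), hc_mem hp j₁ (Units.ne_zero _)⟩, Units.ext ?_⟩
    rw [coe_uch]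
    show ch hp (sr j₀) (hc hp j₁ ((y⁻¹ : Fˣ) : F)) = y
    rw [← vec_simple hp j₀, ch_hc hp j₁ (Units.ne_zero _) (simple_lt hp.inList (lt_rank hp j₀)), hj]
    rw [← Units.val_zpow_eq_zpow_val, inv_zpow', neg_neg, zpow_one]
  have h1 := (uch (k := F) hp j₀).ker.card_mul_index
  rw [Subgroup.index_ker, MonoidHom.range_eq_top.2 hsurj, Subgroup.card_top, Nat.card_units] at h1
  exact h1.symm

end Card

/-- prime divisors of `q * a` against `N` -/
theorem exists_pow {N q a m p : ℕ} (hp : p.Prime) (hq : 1 < q) (ha0 : 0 < a) (h1 : q * q ∣ N)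
    (h2 : a * (q - 1) ∣ N) (h4 : a * m ∣ N) (h3 : p ∣ a → p ∣ q - 1 ∨ p ∣ m) (hm : ¬ (p ∣ m ∧ p ∣ q)) (hN : p ∣ N) :
    ∃ k, p ^ k ∣ N ∧ ¬ p ^ k ∣ q * a := by
  have hnd : ¬ (p ∣ q ∧ p ∣ q - 1) := by
    rintro ⟨ha, hb⟩
    have h4 := (Nat.dvd_sub ha hb)
    have h5 : q - (q - 1) = 1 := by omega
    rw [h5] at h4
    exact hp.one_lt.ne' (Nat.dvd_one.1 h4)
  by_cases hpq : p ∣ q
  · have hpa : ¬ p ∣ a := by
      intro h
      rcases h3 h with h5 | h5
      · exact hnd ⟨hpq, h5⟩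
      · exact hm ⟨h5, hpq⟩
    obtain ⟨e, m, hm, he⟩ := Nat.exists_eq_pow_mul_and_not_dvd (n := q) (by omega) p hp.one_lt.ne'
    refine ⟨e + 1, ?_, ?_⟩
    · refine dvd_trans ?_ h1
      rw [pow_succ]
      exact mul_dvd_mul ⟨m, he⟩ hpq
    · intro h4
      have h5 := (((Nat.Prime.coprime_iff_not_dvd hp).2 hpa).pow_left (e + 1)).dvd_of_dvd_mul_right h4
      rw [he, pow_succ] at h5
      exact hm (Nat.dvd_of_mul_dvd_mul_left (pow_pos hp.pos e) h5)
  · have key : ∀ b, p ∣ b → a * b ∣ N → ∃ k, p ^ k ∣ N ∧ ¬ p ^ k ∣ q * a := by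
      intro b hb hab
      obtain ⟨e, m, hm, he⟩ := Nat.exists_eq_pow_mul_and_not_dvd (n := a) ha0.ne' p hp.one_lt.ne'
      refine ⟨e + 1, ?_, ?_⟩
      · refine dvd_trans ?_ hab
        rw [pow_succ]
        exact mul_dvd_mul ⟨m, he⟩ hb
      · intro h4
        have h5 := (((Nat.Prime.coprime_iff_not_dvd hp).2 hpq).pow_left (e + 1)).dvd_of_dvd_mul_left h4
        rw [he, pow_succ] at h5
        exact hm (Nat.dvd_of_mul_dvd_mul_left (pow_pos hp.pos e) h5)
    by_cases hpq1 : p ∣ q - 1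
    · exact key _ hpq1 h2
    · by_cases hpm : p ∣ m
      · exact key _ hpm h4
      · refine ⟨1, by rwa [pow_one], ?_⟩
        rw [pow_one, hp.dvd_mul]
        rintro (h | h)
        · exact hpq h
        · rcases h3 h with h5 | h5
          · exact hpq1 h5
          · exact hpm h5

end Cfsg.Agent.H138.XTor
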