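import Cfsg.Agent.H138.XSub
import Cfsg.Agent.H138.XExc
import Cfsg.Agent.H967.CopTw
import Cfsg.Agent.ChevalleyStructure.E6Fixed
import Cfsg.Agent.ChevalleyStructure.D4H1
import Cfsg.Agent.S1066
import Cfsg.Agent.S1067
import Cfsg.Agent.S1102
import Cfsg.Agent.S1106

/-!
# `XRow` for `²E₆(q)`, `³D₄(q)` (helper138, for S4938)
-/

set_option autoImplicit false
set_option linter.unusedSectionVars false

namespace Cfsg.Agent.H138.XTw

open CoxeterSystem Subgroup Cfsg Cfsg.Lie Cfsg.Lie.ChevalleyDatum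
open Cfsg.Agent.ChevalleyStructure Cfsg.Agent.ChevalleyStructure.Elts Cfsg.Agent.ChevalleyStructure.CoxeterGeom
  Cfsg.Agent.ChevalleyStructure.CoxeterGeomTypes Cfsg.Agent.ChevalleyStructure.NPerm
open Cfsg.Agent.Tits.Roots Cfsg.Agent.Tits.Core Cfsg.Agent.Nodes.Reps Cfsg.Agent.Nodes.BNOf
  Cfsg.Agent.Nodes.RGDChev Cfsg.Agent.Nodes.Bruhat
open Cfsg.Agent.KFacts.RgdField Cfsg.Agent.KFacts.RgdChevCoord Cfsg.Agent.BpExc.TorCent Cfsg.Agent.BpExc.TorChev
open Cfsg.Agent.BpExc.Tow Cfsg.Agent.BpExc.TowChev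
open Cfsg.Agent.H378.TorDual Cfsg.Agent.H378.TorChar Cfsg.Agent.GpExc.Field
open Cfsg.Agent.H730.Pair Cfsg.Agent.H967.CopMat Cfsg.Agent.H967.CopRow Cfsg.Agent.H138.XTor
open Cfsg.Agent.H138.XExc (dvd_pow_sub small4 qq_dvd dvd_prod)

universe u

section List

variable {D : ChevalleyDatum} {l : ℕ} {M : CoxeterMatrix (Fin l)} (hp : IsType D l M) {F : Type u} [Field F]

/-- the product of the `h_j(a_j)`, `j` in a list -/
noncomputable def tL (L : List (Fin l)) (a : Fin l → Fˣ) : ↥(TT D F) :=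
  (L.map fun j => (⟨hc hp j (a j : F), hc_mem hp j (a j).ne_zero⟩ : ↥(TT D F))).prod

theorem uch_tL (L : List (Fin l)) (a : Fin l → Fˣ) (i : Fin l) :
    uch hp i (tL hp L a) = (L.map fun j : Fin l => a j ^ D.cartan j (D.simple i)).prod := by
  unfold tL
  rw [map_list_prod, List.map_map]
  congr 1
  refine List.map_congr_left fun j _ => Units.ext ?_
  show ((uch hp i (⟨hc hp j (a j : F), hc_mem hp j (a j).ne_zero⟩ : ↥(TT D F)) : Fˣ) : F) = _
  rw [coe_uch, Units.val_zpow_eq_zpow_val]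
  show ch hp (sr i) (hc hp j (a j : F)) = _
  rw [← vec_simple hp i, ch_hc hp j (a j).ne_zero (simple_lt hp.inList (lt_rank hp i))]

theorem coe_tL (L : List (Fin l)) (a : Fin l → Fˣ) :
    (((tL hp L a).1 : ↥(D.group F)) : GL D.Idx F) =
      (L.map fun j : Fin l => hG hp.inList (D.simple j) (a j : F)).prod := by
  unfold tL
  have h1 := map_list_prod ((D.group F).subtype.comp (TT D F).subtype)
    (L.map fun j => (⟨hc hp j (a j : F), hc_mem hp j (a j).ne_zero⟩ : ↥(TT D F)))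
  rw [List.map_map] at h1
  exact h1

theorem tH_eq_tL (c : Fin l → ℤ) (u : Fˣ) {L : List (Fin l)}
    (hL : ∀ g : Fin l → Fˣ, (L.map g).prod = ∏ j, g j) : tH hp c u = tL hp L fun j => u ^ c j := by
  symm
  refine tH_eq hp fun i => ?_
  rw [← coe_uch, uch_tL, hL]
  congr 1
  rw [fn_sr]
  have h1 : ∀ s : Finset (Fin l), ∏ j ∈ s, (u ^ c j) ^ D.cartan j (D.simple i) =
      u ^ ∑ j ∈ s, c j * D.cartan j (D.simple i) := by
    intro s
    induction s using Finset.induction_on with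
    | empty => rw [Finset.sum_empty, Finset.prod_empty, zpow_zero]
    | insert a s ha ih => rw [Finset.sum_insert ha, Finset.prod_insert ha, zpow_add, ih, zpow_mul]
  exact h1 _

end List

/-- subgroups generated by words in root elements -/
theorem gen_le {D : ChevalleyDatum} (hD : InList D) {K : Type*} [Field K] (S : Set (List (ℕ × K))) :
    D.genSubgroup K S ≤ D.group K := by
  unfold ChevalleyDatum.genSubgroup
  rw [Subgroup.closure_le]
  rintro g ⟨w, -, hg⟩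
  rw [← eq_wordG_iff hD] at hg
  rw [SetLike.mem_coe, hg]
  clear hg
  induction w with
  | nil => exact one_mem _
  | cons p w ih => rw [wordG_cons]; exact mul_mem (xG_mem_group hD _ _) ih

section Num

/-- the number of solutions of `s ^ q = s` -/
theorem card_fix {F : Type u} [Field F] [Finite F] {q n : ℕ} (hq : 1 < q) (hF : Nat.card F = q ^ n) (hn : 0 < n) :
    Nat.card {s : F // s ^ q = s} = q := by
  classical
  have hfin := Fintype.ofFinite F
  obtain ⟨b, N, -, -, hob⟩ := XSub.exists_unit (F := F) hq hF hn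
  have hz : ∀ s : F, s ^ q = s ↔ s = 0 ∨ s ^ (q - 1) = 1 := by
    intro s
    constructor
    · intro h
      by_cases h0 : s = 0
      · exact Or.inl h0
      · right
        have h1 : s ^ (q - 1) * s = s := by
          rw [← pow_succ, Nat.sub_add_cancel hq.le, h]
        exact (mul_eq_right₀ h0).1 h1
    · rintro (h | h)
      · rw [h, zero_pow (by omega)]
      · rw [← Nat.sub_add_cancel hq.le, pow_succ, h, one_mul]
  have h1 : Nat.card {s : F // s ^ q = s} = Nat.card (Option (powMonoidHom (q - 1) : Fˣ →* Fˣ).ker) := by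
    refine (Nat.card_congr (Equiv.ofBijective (fun o : Option (powMonoidHom (q - 1) : Fˣ →* Fˣ).ker =>
      (o.elim (⟨0, (hz 0).2 (Or.inl rfl)⟩ : {s : F // s ^ q = s}) fun u => ⟨((u : Fˣ) : F), (hz _).2 (Or.inr (by
        have := (MonoidHom.mem_ker).1 u.2
        rw [powMonoidHom_apply] at this
        rw [← Units.val_pow_eq_pow_val, this, Units.val_one]))⟩)) ⟨?_, ?_⟩)).symm
    · rintro (_ | u) (_ | v) h
      · rfl
      · exact absurd (congrArg Subtype.val h).symm (Units.ne_zero _)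
      · exact absurd (congrArg Subtype.val h) (Units.ne_zero _)
      · exact congrArg some (Subtype.ext (Units.ext (congrArg Subtype.val h)))
    · rintro ⟨s, hs⟩
      rcases (hz s).1 hs with h | h
      · exact ⟨none, Subtype.ext h.symm⟩
      · have h0 : s ≠ 0 := by
          rintro rfl
          rw [zero_pow (by omega)] at h
          exact zero_ne_one h
        refine ⟨some ⟨Units.mk0 s h0, ?_⟩, Subtype.ext rfl⟩
        rw [MonoidHom.mem_ker, powMonoidHom_apply]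
        exact Units.ext h
  rw [h1, Finite.card_option, IsCyclic.card_powMonoidHom_ker, Nat.card_units, hF]
  have h2 : q - 1 ∣ q ^ n - 1 := by simpa using Nat.sub_dvd_pow_sub_pow q 1 n
  rw [Nat.gcd_eq_right h2]
  omega

end Num

section E6

open Cfsg.Agent.ChevalleyStructure.E6Fixed

variable {F : Type} [Field F] [Fintype F] {q : ℕ}

theorem simple_E6 : chevE6.simple 0 = 56 ∧ chevE6.simple 1 = 46 ∧ chevE6.simple 2 = 42 ∧ chevE6.simple 3 = 39 ∧
    chevE6.simple 4 = 37 ∧ chevE6.simple 5 = 36 := by decide +kernel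

theorem list_E6 (g : Fin 6 → Fˣ) : (([1, 3, 2, 4, 0, 5] : List (Fin 6)).map g).prod = ∏ j, g j := by
  rw [Fin.prod_univ_six]
  show g 1 * (g 3 * (g 2 * (g 4 * (g 0 * (g 5 * 1))))) = g 0 * g 1 * g 2 * g 3 * g 4 * g 5
  rw [mul_one]
  ac_rfl

theorem tL_mem_E6 {φ : F →+* F} (hφ : ∀ t, φ t = t ^ q) (hp : IsType chevE6 6 CoxeterMatrix.E₆) (a : Fin 6 → Fˣ)
    (h1 : φ (a 1) = a 1) (h3 : φ (a 3) = a 3) (h24 : φ (a 2) = a 4) (h05 : φ (a 0) = a 5) :
    (((tL hp [1, 3, 2, 4, 0, 5] a).1 : ↥(chevE6.group F)) : GL chevE6.Idx F) ∈ twistedE6 F q := by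
  obtain ⟨s0, s1, s2, s3, s4, s5⟩ := simple_E6
  rw [coe_tL]
  have m1 : hG hE6 (chevE6.simple 1) (a 1 : F) ∈ twistedE6 F q := by
    rw [s1]
    exact h_single_mem hφ (by simp) (by decide +kernel) h1
  have m3 : hG hE6 (chevE6.simple 3) (a 3 : F) ∈ twistedE6 F q := by
    rw [s3]
    exact h_single_mem hφ (by simp) (by decide +kernel) h3
  have m24 : hG hE6 (chevE6.simple 2) (a 2 : F) * hG hE6 (chevE6.simple 4) (a 4 : F) ∈ twistedE6 F q := by
    rw [s2, s4, ← h24]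
    exact h35_mem hφ _
  have m05 : hG hE6 (chevE6.simple 0) (a 0 : F) * hG hE6 (chevE6.simple 5) (a 5 : F) ∈ twistedE6 F q := by
    rw [s0, s5, ← h05]
    exact h16_mem hφ _
  have e : (([1, 3, 2, 4, 0, 5] : List (Fin 6)).map fun j : Fin 6 =>
      hG hp.inList (chevE6.simple j) (a j : F)).prod =
      hG hE6 (chevE6.simple 1) (a 1 : F) * (hG hE6 (chevE6.simple 3) (a 3 : F) *
        ((hG hE6 (chevE6.simple 2) (a 2 : F) * hG hE6 (chevE6.simple 4) (a 4 : F)) *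
          (hG hE6 (chevE6.simple 0) (a 0 : F) * hG hE6 (chevE6.simple 5) (a 5 : F)))) := by
    have e1 : (([1, 3, 2, 4, 0, 5] : List (Fin 6)).map fun j : Fin 6 =>
      hG hp.inList (chevE6.simple j) (a j : F)).prod =
        hG hE6 (chevE6.simple 1) (a 1 : F) * (hG hE6 (chevE6.simple 3) (a 3 : F) *
        (hG hE6 (chevE6.simple 2) (a 2 : F) * (hG hE6 (chevE6.simple 4) (a 4 : F) *
          (hG hE6 (chevE6.simple 0) (a 0 : F) * (hG hE6 (chevE6.simple 5) (a 5 : F) * 1))))) := rfl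
    rw [e1]
    group
  rw [e]
  exact mul_mem m1 (mul_mem m3 (mul_mem m24 m05))

theorem cyc_E6 : chevE6.cartan 1 (chevE6.simple 3) = -1 := by decide +kernel

theorem xRow_E6 {r : ℕ} [CharP F r] (hq : IsPrimePow q) (hF : Fintype.card F = q ^ 2) :
    XRow r ↥(twistedE6 F q) := by
  have hr : Fact r.Prime := ⟨CharP.char_is_prime F r⟩
  have hp : IsType chevE6 6 CoxeterMatrix.E₆ := by simp [IsType, typeList]
  obtain ⟨φ, hφ, -⟩ := TwE6Basic.exists_frob hq hF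
  have hq1 := hq.one_lt
  have hF' : Nat.card F = q ^ 2 := by rw [Nat.card_eq_fintype_card, hF]
  obtain ⟨s0, s1, s2, s3, s4, s5⟩ := simple_E6
  have hN := Cfsg.Agent.S1066.result hq hF
  have hA := Cfsg.Agent.S1102.result hq hF
  set N := Nat.card ↥(twistedE6 F q) with hNdef
  set A := Nat.card ↥(chevE6.diagonalSubgroup F ⊓ twistedE6 F q : Subgroup (GL chevE6.Idx F)) with hAdef
  have hd3 : Nat.gcd 3 (q + 1) ∣ 3 := Nat.gcd_dvd_left _ _
  have hd0 : 0 < Nat.gcd 3 (q + 1) := Nat.gcd_pos_of_pos_left _ (by norm_num)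
  have hdq : (Nat.gcd 3 (q + 1)).Coprime q := by
    refine Nat.Coprime.coprime_dvd_left (Nat.gcd_dvd_right _ _) ?_
    simp
  have h2q : 2 ∣ q * (q ^ 2 - 1) := dvd_prod Nat.prime_two (by norm_num)
  have h3q : 3 ∣ q * (q ^ 2 - 1) := dvd_prod Nat.prime_three (by norm_num)
  have h3q' : 3 ∣ q * (q ^ 6 - 1) := dvd_prod Nat.prime_three (by norm_num)
  have hsq : q ^ 2 - 1 = (q + 1) * (q - 1) := by
    have := Nat.sq_sub_sq q 1
    rwa [one_pow] at this
  have h6 : q ^ 2 - 1 ∣ q ^ 6 - 1 := by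
    have := Nat.sub_dvd_pow_sub_pow (q ^ 2) 1 3
    rwa [one_pow, ← pow_mul] at this
  have h8 : q ^ 2 - 1 ∣ q ^ 8 - 1 := by
    have := Nat.sub_dvd_pow_sub_pow (q ^ 2) 1 4
    rwa [one_pow, ← pow_mul] at this
  have h12 : q ^ 2 - 1 ∣ q ^ 12 - 1 := by
    have := Nat.sub_dvd_pow_sub_pow (q ^ 2) 1 6
    rwa [one_pow, ← pow_mul] at this
  have hb : ∀ b : Fˣ, b ^ q = b → φ (b : F) = b := by
    intro b hb
    rw [hφ]
    exact congrArg Units.val hb
  refine XSub.xRow hp (Kt := twistedE6 F q) (gen_le hp.inList (e6Words F q))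
    (H967.CopTw.row_2e6 hq hF (Cfsg.Agent.Schreier.TwESix.sch hq hF)) hq1 hF' (by norm_num)
    ![6, 8, 11, 15, 11, 6] 3 0 8 5 (by norm_num) (fun s => ?_) (card_fix hq1 hF' (by norm_num)) (fun b hbq => ?_) ?_
    (by decide +kernel) (by decide +kernel) XExc.chk_e6 (by decide +kernel) (by norm_num) (small4 ?_ ?_) ?_
    (m' := q + 1) ?_ (fun p hpp hpA => ?_) (fun p hpp => ?_)
  · show xG hE6 (chevE6.simple 3) s ∈ twistedE6 F q ↔ s ^ q = s
    rw [s3]
    constructor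
    · intro h
      have h1 := (mem_fix φ _).1 (twisted_le_fix hF hφ h)
      rw [sig_39] at h1
      rw [← hφ]
      exact xG_injective (F := F) hE6 (by decide +kernel) h1
    · exact fun h => x_mem (by simp) h
  · rw [tH_eq_tL hp _ b list_E6]
    have h1 : ∀ k : ℤ, φ ((b ^ k : Fˣ) : F) = ((b ^ k : Fˣ) : F) := by
      intro k
      rw [Units.val_zpow_eq_zpow_val, map_zpow₀, hb b hbq]
    exact tL_mem_E6 hφ hp _ (h1 _) (h1 _) (h1 _) (h1 _)
  · obtain ⟨b, n, -, -, hob⟩ := XSub.exists_unit (F := F) hq1 hF' (by norm_num)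
    have hbq : (b ^ n) ^ q = b ^ n := by
      have h1 : (b ^ n) ^ (q - 1) = 1 := by rw [← hob]; exact pow_orderOf_eq_one _
      calc (b ^ n) ^ q = (b ^ n) ^ (q - 1) * b ^ n := by
            rw [← pow_succ]
            congr 1
            omega
        _ = b ^ n := by rw [h1, one_mul]
    refine ⟨tL hp [1, 3, 2, 4, 0, 5] (Pi.mulSingle 1 (b ^ n)), tL_mem_E6 hφ hp _ ?_ ?_ ?_ ?_, ?_⟩
    · rw [Pi.mulSingle_eq_same]
      exact hb _ hbq
    · simp
    · simp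
    · simp
    · rw [uch_tL, list_E6, Finset.prod_eq_single 1]
      · rw [Pi.mulSingle_eq_same, ← hob]
        show orderOf ((b ^ n) ^ chevE6.cartan 1 (chevE6.simple 3)) = _
        rw [cyc_E6, zpow_neg_one, orderOf_inv]
      · intro j _ hj
        rw [Pi.mulSingle_eq_of_ne hj, one_zpow]
      · intro h
        exact absurd (Finset.mem_univ _) h
  · -- `2 ∣ N`
    have h4 : 2 ∣ Nat.gcd 3 (q + 1) * N := by
      rw [hN]
      refine h2q.trans ⟨q ^ 35 * (q ^ 5 + 1) * (q ^ 6 - 1) * (q ^ 8 - 1) * (q ^ 9 + 1) * (q ^ 12 - 1), by ring⟩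
    refine (Nat.prime_two.dvd_mul.1 h4).resolve_left fun h5 => ?_
    exact absurd (h5.trans hd3) (by norm_num)
  · -- `3 ∣ N`
    rcases Nat.prime_three.eq_one_or_self_of_dvd _ hd3 with h1 | h1
    · rw [h1, one_mul] at hN
      show 3 ∣ N
      rw [hN]
      refine h3q.trans ⟨q ^ 35 * (q ^ 5 + 1) * (q ^ 6 - 1) * (q ^ 8 - 1) * (q ^ 9 + 1) * (q ^ 12 - 1), by ring⟩
    · rw [h1] at hN
      have h4 : 3 * 3 ∣ 3 * N := by
        rw [hN]
        refine (mul_dvd_mul h3q h3q').trans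
          ⟨q ^ 34 * (q ^ 5 + 1) * (q ^ 8 - 1) * (q ^ 9 + 1) * (q ^ 12 - 1), by ring⟩
      exact Nat.dvd_of_mul_dvd_mul_left (by norm_num) h4
  · exact qq_dvd (k := 36) (X := (q ^ 2 - 1) * (q ^ 5 + 1) * (q ^ 6 - 1) * (q ^ 8 - 1) * (q ^ 9 + 1) * (q ^ 12 - 1))
      (by rw [hN]; ring) (by norm_num) hdq
  · refine Nat.dvd_of_mul_dvd_mul_left hd0 ?_
    rw [← mul_assoc, hA, hN]
    have h1 : (q ^ 2 - 1) * (q ^ 2 - 1) * (q ^ 2 - 1) * (q ^ 2 - 1) ∣
        (q ^ 2 - 1) * (q ^ 6 - 1) * (q ^ 8 - 1) * (q ^ 12 - 1) :=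
      mul_dvd_mul (mul_dvd_mul (mul_dvd_mul_left _ h6) h8) h12
    have h2 : (q - 1) ^ 4 * (q + 1) ^ 2 * (q + 1) ∣ (q ^ 2 - 1) * (q ^ 2 - 1) * (q ^ 2 - 1) * (q ^ 2 - 1) := by
      rw [hsq]
      exact ⟨q + 1, by ring⟩
    refine (h2.trans h1).trans ⟨q ^ 36 * (q ^ 5 + 1) * (q ^ 9 + 1), by ring⟩
  · have h1 : p ∣ (q - 1) ^ 4 * (q + 1) ^ 2 := by
      rw [← hA]
      exact hpA.mul_left _
    rcases hpp.dvd_mul.1 h1 with h2 | h2
    · exact Or.inl (hpp.dvd_of_dvd_pow h2)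
    · exact Or.inr (hpp.dvd_of_dvd_pow h2)
  · rintro ⟨h1, h2⟩
    have h3 := (Nat.dvd_add_right h2).1 h1
    exact hpp.one_lt.ne' (Nat.dvd_one.1 h3)

end E6

section D4

open Cfsg.Agent.ChevalleyStructure.D4Fixed Cfsg.Agent.ChevalleyStructure.D4Cols Cfsg.Agent.ChevalleyStructure.D4H1

variable {F : Type} [Field F] [Fintype F] {q : ℕ}

theorem simple_D4 : chevD4.simple 0 = 18 ∧ chevD4.simple 1 = 14 ∧ chevD4.simple 2 = 13 ∧ chevD4.simple 3 = 12 := by
  decide +kernel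

theorem list_D4 (g : Fin 4 → Fˣ) : (([0, 2, 3, 1] : List (Fin 4)).map g).prod = ∏ j, g j := by
  rw [Fin.prod_univ_four]
  show g 0 * (g 2 * (g 3 * (g 1 * 1))) = g 0 * g 1 * g 2 * g 3
  rw [mul_one]
  ac_rfl

theorem chk_d4 : ∀ s < chevD4.nroots, |∑ j : Fin 4, (![2, 3, 2, 2] : Fin 4 → ℤ) j * chevD4.cartan j s| ≤ (3 : ℕ) := by
  decide +kernel

theorem hG_eq_wU {hD : InList chevD4} (r : ℕ) (t : F) : hG hD r t = wU (chevD4.hWord r t) := by
  apply Units.ext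
  rw [coe_wU]
  rfl

theorem tL_mem_D4 {φ : F →+* F} (hφ : ∀ t, φ t = t ^ q) (hp : IsType chevD4 4 coxeterD4) (a : Fin 4 → Fˣ)
    (h1 : φ (a 1) = a 1) (h2 : φ (a 0) = a 2) (h3 : φ (φ (a 0)) = a 3) :
    (((tL hp [0, 2, 3, 1] a).1 : ↥(chevD4.group F)) : GL chevD4.Idx F) ∈ twistedD4 F q := by
  obtain ⟨s0, s1, s2, s3⟩ := simple_D4
  have hh := hel_mem_twisted hφ (a 0) (a 1) h1
  rw [hel_eq] at hh
  have e1 : (((tL hp [0, 2, 3, 1] a).1 : ↥(chevD4.group F)) : GL chevD4.Idx F) =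
      hG hp.inList (chevD4.simple 0) (a 0 : F) * (hG hp.inList (chevD4.simple 2) (a 2 : F) *
        (hG hp.inList (chevD4.simple 3) (a 3 : F) * (hG hp.inList (chevD4.simple 1) (a 1 : F) * 1))) := by
    rw [coe_tL]
    rfl
  rw [e1, s0, s1, s2, s3, ← h2, ← h3, hG_eq_wU, hG_eq_wU, hG_eq_wU, hG_eq_wU, mul_one, ← mul_assoc, ← mul_assoc]
  exact hh

theorem xRow_D4 {r : ℕ} [CharP F r] (hq : IsPrimePow q) (hF : Fintype.card F = q ^ 3) :
    XRow r ↥(twistedD4 F q) := by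
  have hr : Fact r.Prime := ⟨CharP.char_is_prime F r⟩
  have hp : IsType chevD4 4 coxeterD4 := by simp [IsType, typeList]
  obtain ⟨φ, hφ⟩ := D4Fixed.exists_frob hq hF
  have hq1 := hq.one_lt
  have hF' : Nat.card F = q ^ 3 := by rw [Nat.card_eq_fintype_card, hF]
  obtain ⟨s0, s1, s2, s3⟩ := simple_D4
  have hN := Cfsg.Agent.S1067.result hq hF
  have hA := Cfsg.Agent.S1106.result hq hF
  have h2q : 2 ∣ q * (q ^ 2 - 1) := dvd_prod Nat.prime_two (by norm_num)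
  have h3q : 3 ∣ q * (q ^ 2 - 1) := dvd_prod Nat.prime_three (by norm_num)
  obtain ⟨k, hk⟩ : ∃ k, q = k + 1 := ⟨q - 1, by omega⟩
  have e2 : q ^ 2 - 1 = (q - 1) * (k + 2) := by
    have h1 : q ^ 2 = (q - 1) * (k + 2) + 1 := by
      rw [hk, Nat.add_sub_cancel]
      ring
    rw [h1, Nat.add_sub_cancel]
  have e6 : q ^ 6 - 1 = (q - 1) * (q ^ 2 + q + 1) * (q ^ 3 + 1) := by
    have h1 : q ^ 6 = (q - 1) * (q ^ 2 + q + 1) * (q ^ 3 + 1) + 1 := by
      rw [hk, Nat.add_sub_cancel]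
      ring
    rw [h1, Nat.add_sub_cancel]
  have e8 : q ^ 8 + q ^ 4 + 1 = (q ^ 2 + q + 1) * ((k ^ 2 + k + 1) * (k ^ 4 + 4 * k ^ 3 + 5 * k ^ 2 + 2 * k + 1)) := by
    rw [hk]
    ring
  refine XSub.xRow hp (Kt := twistedD4 F q) (gen_le hp.inList (d4Words F q))
    (H967.CopTw.row_d4 hq hF) hq1 hF' (by norm_num)
    ![2, 3, 2, 2] 1 0 3 5 (by norm_num) (fun s => ?_) (card_fix hq1 hF' (by norm_num)) (fun b hbq => ?_) ?_
    (by decide +kernel) (by decide +kernel) chk_d4 (by decide +kernel) (by norm_num) (small4 ?_ ?_) ?_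
    (m' := q ^ 2 + q + 1) ?_ (fun p hpp hpA => ?_) (fun p hpp => ?_)
  · show xG hp.inList (chevD4.simple 1) s ∈ twistedD4 F q ↔ s ^ q = s
    have e : xG hp.inList (chevD4.simple 1) s = xU 14 s := by
      rw [s1]
      exact Units.ext rfl
    rw [e]
    constructor
    · intro h
      have h1 := (mem_fix φ _).1 (twisted_le_fix hF hφ h)
      rw [sig_14] at h1
      rw [← hφ]
      have h2 : xG hp.inList 14 (φ s) = xG hp.inList 14 s := Units.ext (congrArg Units.val h1)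
      exact xG_injective (F := F) hp.inList (by decide +kernel) h2
    · exact fun h => x14_mem h
  · rw [tH_eq_tL hp _ b list_D4]
    have h1 : ∀ k : ℤ, φ ((b ^ k : Fˣ) : F) = ((b ^ k : Fˣ) : F) := by
      intro k
      have hb : φ (b : F) = b := by
        rw [hφ]
        exact congrArg Units.val hbq
      rw [Units.val_zpow_eq_zpow_val, map_zpow₀, hb]
    exact tL_mem_D4 hφ hp _ (h1 _) (h1 _) (by rw [h1]; exact h1 _)
  · obtain ⟨b, n, -, hn, hob⟩ := XSub.exists_unit (F := F) hq1 hF' (by norm_num)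
    have hn' : n = 1 + q + q ^ 2 := by
      have h1 : q ^ 3 - 1 = (q - 1) * (1 + q + q ^ 2) := by
        have h2 : q ^ 3 = (q - 1) * (1 + q + q ^ 2) + 1 := by
          rw [hk, Nat.add_sub_cancel]
          ring
        rw [h2, Nat.add_sub_cancel]
      rw [h1] at hn
      exact (Nat.eq_of_mul_eq_mul_left (by omega) hn).symm
    refine ⟨tL hp [0, 2, 3, 1] ![b, 1, b ^ q, b ^ (q ^ 2)], tL_mem_D4 hφ hp _ ?_ ?_ ?_, ?_⟩
    · simp
    · rw [hφ]
      rfl
    · rw [hφ, hφ, ← pow_mul]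
      show (b : F) ^ (q * q) = ((b ^ (q ^ 2) : Fˣ) : F)
      rw [Units.val_pow_eq_pow_val, sq]
    · rw [uch_tL, ← hob, hn']
      have c0 : chevD4.cartan 0 (chevD4.simple 1) = -1 := by decide +kernel
      have c2 : chevD4.cartan 2 (chevD4.simple 1) = -1 := by decide +kernel
      have c3 : chevD4.cartan 3 (chevD4.simple 1) = -1 := by decide +kernel
      show orderOf (b ^ chevD4.cartan 0 (chevD4.simple 1) * ((b ^ q) ^ chevD4.cartan 2 (chevD4.simple 1) *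
        ((b ^ (q ^ 2)) ^ chevD4.cartan 3 (chevD4.simple 1) * ((1 : Fˣ) ^ chevD4.cartan 1 (chevD4.simple 1) * 1)))) = _
      rw [c0, c2, c3, one_zpow, mul_one, mul_one, zpow_neg_one, zpow_neg_one, zpow_neg_one, ← mul_inv, ← mul_inv,
        orderOf_inv]
      congr 1
      rw [pow_add, pow_add, pow_one]
      group
  · -- `2 ∣ N`
    rw [hN]
    refine h2q.trans ⟨q ^ 11 * (q ^ 6 - 1) * (q ^ 8 + q ^ 4 + 1), by ring⟩
  · -- `3 ∣ N`
    rw [hN]
    refine h3q.trans ⟨q ^ 11 * (q ^ 6 - 1) * (q ^ 8 + q ^ 4 + 1), by ring⟩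
  · rw [hN]
    exact ⟨q ^ 10 * (q ^ 2 - 1) * (q ^ 6 - 1) * (q ^ 8 + q ^ 4 + 1), by ring⟩
  · rw [hA, hN, e2, e6, e8]
    exact ⟨q ^ 12 * (k + 2) * (q ^ 3 + 1) * ((k ^ 2 + k + 1) * (k ^ 4 + 4 * k ^ 3 + 5 * k ^ 2 + 2 * k + 1)), by ring⟩
  · rw [hA] at hpA
    rcases hpp.dvd_mul.1 hpA with h2 | h2
    · exact Or.inl (hpp.dvd_of_dvd_pow h2)
    · exact Or.inr h2
  · rintro ⟨h1, h2⟩
    have h4 : p ∣ q ^ 2 + q := by
      rw [sq]
      exact Dvd.dvd.add (h2.mul_left q) h2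
    have h3 := (Nat.dvd_add_right h4).1 h1
    exact hpp.one_lt.ne' (Nat.dvd_one.1 h3)

end D4

/-- **`XRow` for `²E₆(q)` and `³D₄(q)`.** -/
theorem xRow_tw {r : ℕ} {K : Type*} [Group K] [Finite K] [IsSimpleGroup K] (h : Cfsg.IsTwistedE6D4Char r K) :
    XRow r K := by
  obtain ⟨F, _, _, _, q, hq, (⟨hF, ⟨e⟩⟩ | ⟨hF, ⟨e⟩⟩)⟩ := h
  · exact (xRow_E6 hq hF).mulEquiv e.symm
  · exact (xRow_D4 hq hF).mulEquiv e.symm

end Cfsg.Agent.H138.XTw
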